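import Cfsg.Agent.H282.Close

/-!
# helper282: simple groups of characteristic 2 type with two rank one parabolics on natural modules, `q > 4`
-/

set_option autoImplicit false
set_option linter.unusedSectionVars false

namespace Cfsg.Agent.H282

open Subgroup Cfsg Cfsg.Agent.Omega.NatPair Cfsg.Agent.Lib.SL2Mat
open Cfsg.Agent.TypeL3.Local (LThreeLocal LThreeCoord)
open Cfsg.Agent.TwoFusion.SectionalRank (sectionalPRankLE_iff)

universe u v

variable {G : Type u} [Group G] {F : Type v} [Field F]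

namespace Dat

variable {L₁ L₂ V₁ V₂ J : Subgroup G} {π₁ π₂ : G → Fin 2 → F}
variable (h : Dat F L₁ L₂ V₁ V₂ J π₁ π₂) [Finite G] [Finite F] [CharP F 2]

include h

theorem normJ₂ (S : Sylow 2 G) (hS : (S : Subgroup G) = J) {g : G} (hg : ∀ j ∈ J, g * j * g⁻¹ ∈ J) :
    ∀ v ∈ V₂, g * v * g⁻¹ ∈ V₂ := h.symm.normJ S hS hg

theorem H1 {g : G} (hg : g ∈ normalizer (V₁ : Set G)) (hg2 : g ∉ normalizer (V₂ : Set G)) {z : G}
    (hz : z ∈ V₁ ⊓ V₂) (hgz : g * z * g⁻¹ ∈ V₁ ⊓ V₂) : z = 1 := by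
  by_contra hz1
  apply hg2
  rw [mem_norm_iff] at hg ⊢
  have h1 := h.s₁.line h.nrm₁ hg hz.1 hz1 ((h.mem_iff hz.1).1 hz.2) ((h.mem_iff hgz.1).1 hgz.2)
  exact h.perm₁ (h.s₁.norm_J h.nrm₁ hg h1) hg

theorem trans_V {a b : G} (ha : a ∈ V₁) (ha1 : a ≠ 1) (hb : b ∈ V₁) (hb1 : b ≠ 1) :
    ∃ g ∈ normalizer (V₁ : Set G), g * a * g⁻¹ = b := by
  obtain ⟨l, hl, e⟩ := h.s₁.trans ha hb ha1 hb1
  exact ⟨l, mem_norm_iff.2 (h.s₁.Vn l hl), e⟩

theorem not_conj (S : Sylow 2 G) (hS : (S : Subgroup G) = J) (g : G) : ∃ a ∈ V₁, g * a * g⁻¹ ∉ V₂ := by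
  by_contra hcon
  push Not at hcon
  have e1 : V₁.map (MulAut.conj g).toMonoidHom = V₂ := by
    refine Subgroup.eq_of_le_of_card_ge ?_ ?_
    · rintro _ ⟨v, hv, rfl⟩
      exact hcon v hv
    · rw [← h.card_eq]
      exact (Nat.card_congr (V₁.equivMapOfInjective _ (MulAut.conj g).injective).toEquiv).le
  have hback : ∀ v ∈ V₂, ∃ u ∈ V₁, v = g * u * g⁻¹ := by
    intro v hv
    rw [← e1] at hv
    obtain ⟨u, hu, rfl⟩ := hv
    exact ⟨u, hu, rfl⟩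
  have hSN : (S : Subgroup G) ≤ normalizer (V₂ : Set G) := by
    rw [hS]
    exact fun j hj => mem_norm_iff.2 (h.s₂.Vn j (h.s₂.JL hj))
  have hT : (S : Subgroup G).map (MulAut.conj g).toMonoidHom ≤ normalizer (V₂ : Set G) := by
    rintro _ ⟨j, hj, rfl⟩
    rw [mem_norm_iff]
    intro v hv
    obtain ⟨u, hu, rfl⟩ := hback v hv
    have hj' : j ∈ J := by rw [← hS]; exact hj
    show g * j * g⁻¹ * (g * u * g⁻¹) * (g * j * g⁻¹)⁻¹ ∈ V₂
    have e : g * j * g⁻¹ * (g * u * g⁻¹) * (g * j * g⁻¹)⁻¹ = g * (j * u * j⁻¹) * g⁻¹ := by group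
    rw [e]
    exact hcon _ (h.s₁.Vn j (h.s₁.JL hj') u hu)
  obtain ⟨n, hn, hnS⟩ := Cfsg.Agent.Omega.CloseA.exists_conj_le S hSN hT (S.isPGroup'.map _)
  have h1 : ∀ j ∈ J, (n * g) * j * (n * g)⁻¹ ∈ J := by
    intro j hj
    have h2 := hnS (g * j * g⁻¹) ⟨j, by rw [SetLike.mem_coe]; show j ∈ (S : Subgroup G); rw [hS]; exact hj, rfl⟩
    rw [hS] at h2
    have e : n * g * j * (n * g)⁻¹ = n * (g * j * g⁻¹) * n⁻¹ := by group
    rwa [e]
  have h2 := h.normJ S hS h1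
  obtain ⟨u, hu, hu2⟩ := h.exists_out
  have h3 : n * g ∈ normalizer (V₁ : Set G) := mem_norm_iff.2 h2
  -- `n g u g⁻¹ n⁻¹ ∈ V₂` for all `u ∈ V₁`
  have h4 : ∀ u ∈ V₁, (n * g) * u * (n * g)⁻¹ ∈ V₂ := by
    intro u hu
    have e : n * g * u * (n * g)⁻¹ = n * (g * u * g⁻¹) * n⁻¹ := by group
    rw [e]
    exact mem_norm_iff.1 hn _ (hcon u hu)
  have h5 := (mem_norm_iff.1 (inv_mem h3)) u hu
  have h6 := h4 _ h5
  have e : n * g * ((n * g)⁻¹ * u * (n * g)⁻¹⁻¹) * (n * g)⁻¹ = u := by group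
  rw [e] at h6
  exact hu2 h6

theorem card_V : Nat.card V₁ = Nat.card F ^ 2 := by
  rw [h.s₁.card, Nat.card_fun, Nat.card_eq_fintype_card (α := Fin 2), Fintype.card_fin]

theorem three (hG : IsCharacteristicTwoType G) (S : Sylow 2 G) (hS : (S : Subgroup G) = J)
    (hF : 4 ≤ Nat.card F) : LThreeLocal V₁ V₂ (Nat.card F) where
  four_le := hF
  even_q := by
    have _ := Fintype.ofFinite F
    obtain ⟨n, hp, hn⟩ := FiniteField.card F 2
    rw [Nat.card_eq_fintype_card, hn]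
    exact (even_iff_two_dvd).2 (dvd_pow_self 2 n.2.ne')
  A_comm := fun a ha b hb => h.s₁.comm ha hb
  B_comm := fun a ha b hb => h.s₂.comm ha hb
  A_sq := fun a ha => h.s₁.sq ha
  B_sq := fun a ha => h.s₂.sq ha
  card_A := h.card_V
  card_B := h.symm.card_V
  card_Z := h.co3.card_D
  A_le := fun a ha => mem_norm_iff.2 (h.s₂.Vn a (h.s₂.JL (h.s₁.VJ ha)))
  B_le := fun a ha => mem_norm_iff.2 (h.s₁.Vn a (h.s₁.JL (h.s₂.VJ ha)))
  sylow := ⟨S, by rw [hS, h.sup_eq]⟩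
  inv_mem := fun s hs h2 => h.mem_or (by rwa [h.sup_eq] at hs) h2
  trans_A := fun a ha ha1 b hb hb1 => h.trans_V ha ha1 hb hb1
  trans_B := fun a ha ha1 b hb hb1 => h.symm.trans_V ha ha1 hb hb1
  H1 := fun g hg hg2 z hz hgz => h.H1 hg hg2 hz hgz
  H2 := fun g hg hg2 z hz hgz => h.symm.H1 hg hg2 ⟨hz.2, hz.1⟩ ⟨hgz.2, hgz.1⟩
  cent_Z := fun z hz hz1 g hg => by
    have hgz := mem_centralizer_singleton_iff.1 hg
    have h1 := h.cent_Z hG S hS hz hz1 hgz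
    exact mem_inf.2 ⟨mem_norm_iff.2 (h.normJ S hS h1), mem_norm_iff.2 (h.normJ₂ S hS h1)⟩
  not_conj := h.not_conj S hS

/-- `J = S` -/
theorem psl_of (hG : IsCharacteristicTwoType G) (S : Sylow 2 G) (hS : (S : Subgroup G) = J)
    (hF : 4 ≤ Nat.card F) [IsSimpleGroup G] : Nonempty (G ≃* Matrix.ProjectiveSpecialLinearGroup (Fin 3) F) := by
  obtain ⟨x, y, z, hc⟩ := h.coord
  exact Cfsg.Agent.TypeL3.Back.nonempty_psl hc (h.three hG S hS hF) rfl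

end Dat

/-- a group of characteristic 2 type in which some element of `S` interchanges `V₁` and `V₂` is not simple -/
theorem Dat.no_swap {G : Type u} [Group G] [Finite G] [IsSimpleGroup G] (hG : IsCharacteristicTwoType G)
    {F : Type} [Field F] [Finite F] [CharP F 2] {L₁ L₂ V₁ V₂ J : Subgroup G} {π₁ π₂ : G → Fin 2 → F}
    (h : Dat F L₁ L₂ V₁ V₂ J π₁ π₂) (hF : 4 < Nat.card F) (S : Sylow 2 G) (hS : J ≤ (S : Subgroup G)) :
    ∀ s ∈ (S : Subgroup G), (∀ v ∈ V₁, s * v * s⁻¹ ∈ V₁) ∧ (∀ v ∈ V₂, s * v * s⁻¹ ∈ V₂) := by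
  rcases h.cases S.isPGroup' hS with hA | ⟨s, hs, ⟨M⟩⟩
  · exact hA
  · exfalso
    have hNS : ∀ x ∈ (S : Subgroup G), (∀ a ∈ V₁, x * a * x⁻¹ ∈ V₁) → x ∈ (S : Subgroup G) ⊓ normalizer (V₁ : Set G) :=
      fun x hx hxa => ⟨hx, mem_norm_iff.2 hxa⟩
    have hr : ¬ SectionalPRankLE 2 4 G := by
      intro hr
      rw [sectionalPRankLE_iff] at hr
      have h1 := hr V₁ ⊥ ⟨bot_le, fun a ha b hb => by
        rw [mem_bot, h.s₁.comm ha hb]; group, fun a ha => by rw [mem_bot, pow_two, h.s₁.sq ha]⟩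
      rw [card_bot, h.card_V] at h1
      have h2 : 5 ^ 2 ≤ Nat.card F ^ 2 := Nat.pow_le_pow_left hF 2
      omega
    exact M.false_of inf_le_left hs hNS hF.le (Cfsg.Agent.Omega.SQ1.EndOneOf.glob M hG inf_le_left hs hNS hF.le
      (Cfsg.Agent.Omega.SQ1.CoOf.nodeA G hG hr F S _ _ _ _ _ _ _ _ M inf_le_left hs hNS hF.le))

/-- **simple groups, `q > 4`** -/
theorem Dat.simple {G : Type u} [Group G] [Finite G] [IsSimpleGroup G] (hG : IsCharacteristicTwoType G)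
    {F : Type v} [Field F] [Finite F] [CharP F 2] {L₁ L₂ V₁ V₂ J : Subgroup G} {π₁ π₂ : G → Fin 2 → F}
    (h : Dat F L₁ L₂ V₁ V₂ J π₁ π₂) (hF : 4 < Nat.card F) {F' : Type} [Field F'] (ρ : F ≃+* F') :
    Nonempty (G ≃* Matrix.ProjectiveSpecialLinearGroup (Fin 3) F) := by
  obtain ⟨S, hS⟩ := h.isPGroup_J.exists_le_sylow
  have _ : Finite F' := Finite.of_equiv F ρ.toEquiv
  have _ : CharP F' 2 := charP_of_injective_ringHom (f := (ρ : F →+* F')) ρ.injective 2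
  have hA := (h.field ρ).no_swap hG (by rwa [← Nat.card_congr ρ.toEquiv]) S hS
  have hc := h.ctx S.isPGroup' hS (fun s hs => (hA s hs).1) fun s hs => (hA s hs).2
  have l₁ := h.lin₁ S.isPGroup' hS fun s hs => (hA s hs).1
  have l₂ := h.symm.lin₁ S.isPGroup' hS fun s hs => (hA s hs).2
  rw [inf_comm] at l₂
  rcases Cfsg.Agent.Omega.CloseA.close3 S h.co3 hc l₁ l₂ (Cfsg.Agent.Omega.CloseA.CTs_of hG _ _) with h1 | h1
  · exact h.psl_of hG S h1 hF.le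
  · omega

end Cfsg.Agent.H282
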